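import Mathlib
import Cfsg.Agent.Base
import Cfsg.Agent.Lib.Core.GrpBasic
import Cfsg.Agent.Lib.Core.HallSZ
import Cfsg.Agent.Lib.InvChar.SylowIn
import Cfsg.Agent.Lib.PGroup.Basic
import Cfsg.Agent.Lib.Transfer.Control

/-! A 2-group `R` centralising an involution `v`, with an automorphism of order 3, in which the normaliser
of a self-centralising `E₈` has order 32: `R` has order 32 or 64. -/

set_option autoImplicit false
set_option linter.style.haveILetI false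
set_option linter.unusedSectionVars false

namespace H63.B1

open Subgroup

variable {G : Type*} [Group G]

theorem cent_mod [Finite G] {P N K : Subgroup G} (hP : IsPGroup 2 P) (hNP : N ≤ P)
    (hn : ∀ g ∈ P, ∀ a ∈ N, g * a * g⁻¹ ∈ N) (h : ¬ N ≤ K) :
    ∃ t ∈ N, t ∉ K ∧ ∀ g ∈ P, g * t * g⁻¹ * t⁻¹ ∈ K := by
  haveI : Group.IsNilpotent P := hP.isNilpotent
  haveI : (N.subgroupOf P).Normal := ⟨fun a ha g => hn g g.2 a ha⟩
  obtain ⟨t, h1, h2, h3⟩ := H5.exists_central_mod_of_nilpotent (K.subgroupOf P) (N.subgroupOf P)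
    (fun e => h fun a ha => e (show (⟨a, hNP ha⟩ : P) ∈ N.subgroupOf P from ha))
  refine ⟨t, h1, h2, fun g hg => ?_⟩
  have := K.inv_mem (mem_subgroupOf.1 (h3 ⟨g, hg⟩))
  simpa [commutatorElement_def, mul_assoc] using this

theorem le_of_norm [Finite G] {P A : Subgroup G} (hP : IsPGroup 2 P) (hA : A ≤ P)
    (h : P ⊓ normalizer (A : Set G) ≤ A) : P ≤ A := by
  by_contra hn
  obtain ⟨t, h1, h2, h3⟩ := cent_mod hP le_rfl
    (fun g hg a ha => P.mul_mem (P.mul_mem hg ha) (P.inv_mem hg)) hn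
  refine h2 (h ⟨h1, H72.mem_normalizer_of_conj_mem fun k hk => ?_⟩)
  have : t * k * t⁻¹ = (k * t * k⁻¹ * t⁻¹)⁻¹ * k := by group
  rw [this]
  exact A.mul_mem (A.inv_mem (h3 k (hA hk))) hk

/-- the elements of `N` centralised by `P` modulo `A` -/
def up (N P A : Subgroup G) (hA : ∀ t ∈ N, ∀ a ∈ A, t * a * t⁻¹ ∈ A) : Subgroup G where
  carrier := {t | t ∈ N ∧ ∀ r ∈ P, r * t * r⁻¹ * t⁻¹ ∈ A}
  one_mem' := ⟨N.one_mem, fun r _ => by simp⟩
  mul_mem' := fun {a b} ha hb => ⟨N.mul_mem ha.1 hb.1, fun r hr => by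
    have : r * (a * b) * r⁻¹ * (a * b)⁻¹ = (r * a * r⁻¹ * a⁻¹) * (a * (r * b * r⁻¹ * b⁻¹) * a⁻¹) := by group
    rw [this]
    exact A.mul_mem (ha.2 r hr) (hA a ha.1 _ (hb.2 r hr))⟩
  inv_mem' := fun {a} ha => ⟨N.inv_mem ha.1, fun r hr => by
    have : r * a⁻¹ * r⁻¹ * a⁻¹⁻¹ = a⁻¹ * (r * a * r⁻¹ * a⁻¹)⁻¹ * a⁻¹⁻¹ := by group
    rw [this]
    exact hA _ (N.inv_mem ha.1) _ (A.inv_mem (ha.2 r hr))⟩

theorem mem_up {N P A : Subgroup G} {hA : ∀ t ∈ N, ∀ a ∈ A, t * a * t⁻¹ ∈ A} {t : G} :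
    t ∈ up N P A hA ↔ t ∈ N ∧ ∀ r ∈ P, r * t * r⁻¹ * t⁻¹ ∈ A := Iff.rfl

/-- `x` normalises `K` -/
def Iv (x : G) (K : Subgroup G) : Prop := ∀ k ∈ K, x * k * x⁻¹ ∈ K

theorem Iv.inv [Finite G] {x : G} {K : Subgroup G} (h : Iv x K) {k : G} (hk : k ∈ K) : x⁻¹ * k * x ∈ K :=
  H72.inv_conj_mem_of_mem_normalizer (H72.mem_normalizer_of_conj_mem h) hk

theorem Iv.inf {x : G} {K L : Subgroup G} (h : Iv x K) (h' : Iv x L) : Iv x (K ⊓ L) :=
  fun k hk => ⟨h k hk.1, h' k hk.2⟩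

theorem Iv.norm [Finite G] {x : G} {K : Subgroup G} (h : Iv x K) : Iv x (normalizer (K : Set G)) := fun k hk => by
  have hx := H72.mem_normalizer_of_conj_mem h
  exact mul_mem (mul_mem hx hk) (inv_mem hx)

theorem Iv.cent [Finite G] {x : G} {K : Subgroup G} (h : Iv x K) : Iv x (centralizer (K : Set G)) := fun k hk => by
  rw [mem_centralizer_iff] at hk ⊢
  intro a ha
  have := hk _ (h.inv ha)
  calc a * (x * k * x⁻¹) = x * (x⁻¹ * a * x * k) * x⁻¹ := by group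
    _ = _ := by rw [this]; group

theorem Iv.up [Finite G] {x : G} {N P A : Subgroup G} {hA : ∀ t ∈ N, ∀ a ∈ A, t * a * t⁻¹ ∈ A}
    (h1 : Iv x N) (h2 : Iv x P) (h3 : Iv x A) : Iv x (up N P A hA) := fun t ht => by
  refine ⟨h1 t ht.1, fun r hr => ?_⟩
  have := h3 _ (ht.2 _ (h2.inv hr))
  convert this using 1
  group

theorem lt_card [Finite G] {A B : Subgroup G} (h : A ≤ B) {t : G} (h1 : t ∈ B) (h2 : t ∉ A) :
    Nat.card A < Nat.card B :=
  H1.card_lt_of_lt (lt_of_le_of_ne h fun e => h2 (e ▸ h1))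

theorem dvd8 {n : ℕ} (h : n ∣ 8) : n = 1 ∨ n = 2 ∨ n = 4 ∨ n = 8 := by
  have := Nat.le_of_dvd (by norm_num) h
  interval_cases n <;> simp_all

/-- the set-up -/
structure BS (x v : G) (W R : Subgroup G) : Prop where
  hx : x ^ 3 = 1
  v1 : v ≠ 1
  vW : v ∈ W
  Wsq : ∀ a ∈ W, a * a = 1
  cW : Nat.card W = 8
  CW : ∀ g : G, (∀ w ∈ W, w * g = g * w) → g ∈ W
  xW : Iv x W
  xR : Iv x R
  pR : IsPGroup 2 R
  Rv : ∀ r ∈ R, r * v = v * r
  xv : x * v = v * x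
  WR : W ≤ R
  c0 : Nat.card (R ⊓ normalizer (W : Set G) : Subgroup G) = 32
  fix : ∀ c ∈ R ⊓ normalizer (W : Set G), c * x = x * c → c ∈ zpowers v

/-- `N_R(W)` -/
abbrev R0 (W R : Subgroup G) : Subgroup G := R ⊓ normalizer (W : Set G)

/-- `N_R(N_R(W))` -/
abbrev R1 (W R : Subgroup G) : Subgroup G := R ⊓ normalizer (R0 W R : Set G)

namespace BS

variable [Finite G] {x v : G} {W R : Subgroup G} (h : BS x v W R)
include h

theorem vv : v * v = 1 := h.Wsq v h.vW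

theorem ordv : orderOf v = 2 :=
  haveI := Fact.mk Nat.prime_two
  orderOf_eq_prime (by rw [sq, h.vv]) h.v1

theorem cZ : Nat.card (zpowers v) = 2 := by rw [Nat.card_zpowers, h.ordv]

theorem memZ {e : G} (he : e ∈ zpowers v) : e = 1 ∨ e = v := by
  obtain ⟨k, rfl⟩ := mem_zpowers_iff.1 he
  have h2 : v ^ (2 : ℤ) = 1 := by rw [zpow_two, h.vv]
  obtain ⟨j, rfl | rfl⟩ := Int.even_or_odd' k
  · left; rw [zpow_mul, h2, one_zpow]
  · right; rw [zpow_add, zpow_mul, h2, one_zpow, one_mul, zpow_one]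

theorem cen {e g : G} (he : e ∈ zpowers v) (hg : g ∈ R) : g * e = e * g := by
  rcases h.memZ he with rfl | rfl
  · simp
  · exact h.Rv g hg

theorem Zsq {e : G} (he : e ∈ zpowers v) : e * e = 1 := by
  rcases h.memZ he with rfl | rfl
  · simp
  · exact h.vv

theorem Wcomm {a b : G} (ha : a ∈ W) (hb : b ∈ W) : a * b = b * a := by
  rw [← inv_eq_of_mul_eq_one_right (h.Wsq _ (W.mul_mem ha hb)), mul_inv_rev,
    inv_eq_of_mul_eq_one_right (h.Wsq a ha), inv_eq_of_mul_eq_one_right (h.Wsq b hb)]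

theorem ZW : zpowers v ≤ W := zpowers_le.2 h.vW

theorem W0 : W ≤ R0 W R := fun _ hw => ⟨h.WR hw, le_normalizer hw⟩

theorem le01 : R0 W R ≤ R1 W R := fun _ hw => ⟨hw.1, le_normalizer hw⟩

theorem xZ : Iv x (zpowers v) := fun k hk => by
  rcases h.memZ hk with rfl | rfl
  · simp
  · rw [h.xv]; simp

theorem x0 : Iv x (R0 W R) := h.xR.inf h.xW.norm

theorem x1 : Iv x (R1 W R) := h.xR.inf h.x0.norm

theorem nZ : ∀ t ∈ R0 W R, ∀ a ∈ zpowers v, t * a * t⁻¹ ∈ zpowers v := fun t ht a ha => by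
  rw [h.cen ha ht.1]; simpa using ha

theorem n0 {g a : G} (hg : g ∈ R1 W R) (ha : a ∈ R0 W R) : g * a * g⁻¹ ∈ R0 W R :=
  H72.conj_mem_of_mem_normalizer hg.2 ha

theorem p1 : IsPGroup 2 (R1 W R) := h.pR.to_le inf_le_left

theorem card3 {K : Subgroup G} (h0 : K ≤ R0 W R) (hv : v ∈ K) (hK : Iv x K) :
    Nat.card K = 2 ∨ Nat.card K = 8 ∨ Nat.card K = 32 := by
  haveI := Fact.mk Nat.prime_three
  have h1 := H4.card_modEq_card_inf_centralizer (q := 3) (k := 1) (H72.mem_normalizer_of_conj_mem hK)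
    (by simpa using h.hx)
  have h2 : K ⊓ centralizer {x} = zpowers v := by
    refine le_antisymm (fun c hc => h.fix c (h0 hc.1) (mem_centralizer_singleton_iff.1 hc.2)) ?_
    exact zpowers_le.2 ⟨hv, mem_centralizer_singleton_iff.2 h.xv.symm⟩
  rw [h2, h.cZ] at h1
  have h3 := card_dvd_of_le h0
  rw [h.c0] at h3
  have := Nat.le_of_dvd (by norm_num) h3
  unfold Nat.ModEq at h1
  generalize Nat.card K = n at *
  interval_cases n <;> simp_all

/-- the preimage of `C_{R₀/v}(R₁)` -/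
def Z0 : Subgroup G := up (R0 W R) (R1 W R) (zpowers v) h.nZ

theorem memZ0 {t : G} : t ∈ h.Z0 ↔ t ∈ R0 W R ∧ ∀ r ∈ R1 W R, r * t * r⁻¹ * t⁻¹ ∈ zpowers v := Iff.rfl

theorem ZZ0 : zpowers v ≤ h.Z0 := fun e he =>
  ⟨h.W0 (h.ZW he), fun r hr => by rw [h.cen he hr.1]; simp⟩

theorem xZ0 : Iv x h.Z0 := Iv.up h.x0 h.x1 h.xZ

theorem Z0le : h.Z0 ≤ R0 W R := fun _ ht => ht.1

theorem nZ0 {r z : G} (hr : r ∈ R1 W R) (hz : z ∈ h.Z0) : r * z * r⁻¹ ∈ h.Z0 := by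
  have : r * z * r⁻¹ = (r * z * r⁻¹ * z⁻¹) * z := by group
  rw [this]
  exact mul_mem (h.ZZ0 (hz.2 r hr)) hz

theorem done_of_le (hle : W ≤ h.Z0) : R ≤ normalizer (W : Set G) := by
  have : R ≤ R0 W R := le_of_norm h.pR inf_le_left fun r hr => ⟨hr.1, H72.mem_normalizer_of_conj_mem fun w hw => by
    have : r * w * r⁻¹ = (r * w * r⁻¹ * w⁻¹) * w := by group
    rw [this]
    exact mul_mem (h.ZW ((hle hw).2 r hr)) hw⟩
  exact fun r hr => (this hr).2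

theorem infZ0 (hn : ¬ W ≤ h.Z0) : W ⊓ h.Z0 = zpowers v := by
  have h1 := h.card3 (K := W ⊓ h.Z0) (inf_le_left.trans h.W0) ⟨h.vW, h.ZZ0 (mem_zpowers v)⟩ (h.xW.inf h.xZ0)
  have h2 : Nat.card (W ⊓ h.Z0 : Subgroup G) < Nat.card W :=
    H1.card_lt_of_lt (lt_of_le_of_ne inf_le_left fun e => hn (inf_eq_left.1 e))
  rw [h.cW] at h2
  exact (eq_of_le_of_card_ge (le_inf h.ZW h.ZZ0) (by rw [h.cZ]; omega)).symm

theorem cZ0 (hn : ¬ W ≤ h.Z0) : Nat.card h.Z0 = 8 := by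
  have h1 := h.card3 h.Z0le (h.ZZ0 (mem_zpowers v)) h.xZ0
  obtain ⟨t, t1, t2, t3⟩ := cent_mod (N := R0 W R) (K := zpowers v) h.p1 h.le01 (fun g hg a ha => h.n0 hg ha)
    (fun e => by have := card_le_of_le e; rw [h.c0, h.cZ] at this; omega)
  have h2 := lt_card h.ZZ0 (t := t) ⟨t1, t3⟩ t2
  have h3 : Nat.card h.Z0 < Nat.card (R0 W R) :=
    H1.card_lt_of_lt (lt_of_le_of_ne h.Z0le fun e => hn (e ▸ h.W0))
  rw [h.c0] at h3
  rw [h.cZ] at h2
  omega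

theorem dec (hn : ¬ W ≤ h.Z0) {t : G} (ht : t ∈ R0 W R) : ∃ w ∈ W, ∃ z ∈ h.Z0, w * z = t := by
  have h0 : h.Z0 ≤ normalizer (W : Set G) := fun z hz => hz.1.2
  have h1 := H1.card_sup_mul_card_inf_of_le_normalizer h0
  rw [inf_comm, h.infZ0 hn, h.cZ, h.cZ0 hn, h.cW, sup_comm] at h1
  have h2 : W ⊔ h.Z0 = R0 W R := eq_of_le_of_card_ge (sup_le h.W0 h.Z0le) (by rw [h.c0]; omega)
  rw [← h2, ← SetLike.mem_coe, coe_mul_of_right_le_normalizer_left W _ h0, Set.mem_mul] at ht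
  exact ht

theorem comZ0 (hn : ¬ W ≤ h.Z0) {t r : G} (ht : t ∈ R0 W R) (hr : r ∈ R1 W R) : r * t * r⁻¹ * t⁻¹ ∈ h.Z0 := by
  let Z1 := up (R0 W R) (R1 W R) h.Z0 fun t ht a ha => h.nZ0 (h.le01 ht) ha
  have l1 : h.Z0 ≤ Z1 := fun z hz => ⟨hz.1, fun r hr => h.ZZ0 (hz.2 r hr)⟩
  have h1 := h.card3 (K := Z1) (fun _ ht => ht.1) (l1 (h.ZZ0 (mem_zpowers v))) (Iv.up h.x0 h.x1 h.xZ0)
  obtain ⟨u, t1, t2, t3⟩ := cent_mod (N := R0 W R) (K := h.Z0) h.p1 h.le01 (fun g hg a ha => h.n0 hg ha)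
    (fun e => hn (h.W0.trans e))
  have h2 := lt_card l1 (t := u) ⟨t1, t3⟩ t2
  rw [h.cZ0 hn] at h2
  have h3 : Z1 = R0 W R := eq_of_le_of_card_ge (fun _ ht => ht.1) (by rw [h.c0]; omega)
  exact (show t ∈ Z1 from h3 ▸ ht).2 r hr

theorem com_cen {a b z : G} (ha : a ∈ R1 W R) (hb : b ∈ R1 W R) (hz : z ∈ h.Z0) :
    (a * b * a⁻¹ * b⁻¹) * z = z * (a * b * a⁻¹ * b⁻¹) := by
  obtain ⟨e, he, e1⟩ : ∃ e ∈ zpowers v, a * z = e * z * a := ⟨_, hz.2 a ha, by group⟩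
  obtain ⟨f, hf, e2⟩ : ∃ f ∈ zpowers v, b * z = f * z * b := ⟨_, hz.2 b hb, by group⟩
  have hz' : z ∈ R := hz.1.1
  have k1 : a * b * z = (e * f) * z * (a * b) := by
    calc a * b * z = a * (b * z) := by group
      _ = (a * f) * z * b := by rw [e2]; group
      _ = f * (a * z) * b := by rw [h.cen hf ha.1]; group
      _ = (f * e) * z * (a * b) := by rw [e1]; group
      _ = _ := by rw [h.cen he (h.WR (h.ZW hf))]
  have k2 : b * a * z = (e * f) * z * (b * a) := by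
    calc b * a * z = b * (a * z) := by group
      _ = (b * e) * z * a := by rw [e1]; group
      _ = e * (b * z) * a := by rw [h.cen he hb.1]; group
      _ = (e * f) * z * (b * a) := by rw [e2]; group
  have hc : a * b * a⁻¹ * b⁻¹ ∈ R := mul_mem (mul_mem (mul_mem ha.1 hb.1) (inv_mem ha.1)) (inv_mem hb.1)
  have k3 : (a * b * a⁻¹ * b⁻¹) * ((e * f) * z) = (e * f) * z * (a * b * a⁻¹ * b⁻¹) := by
    calc _ = (a * b) * (b * a)⁻¹ * ((e * f) * z * (b * a)) * (b * a)⁻¹ := by group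
      _ = (a * b * z) * (b * a)⁻¹ := by rw [← k2]; group
      _ = _ := by rw [k1]; group
  rw [← mul_assoc, h.cen (mul_mem he hf) hc, mul_assoc, mul_assoc (e * f)] at k3
  exact mul_left_cancel k3

theorem com_w (hn : ¬ W ≤ h.Z0) {w r : G} (hw : w ∈ W) (hr : r ∈ R1 W R) :
    (r * w * r⁻¹ * w⁻¹) * w = w * (r * w * r⁻¹ * w⁻¹) := by
  have hw1 := h.le01 (h.W0 hw)
  have hz := h.comZ0 hn (h.W0 hw) hr
  have hc : ∀ z' ∈ h.Z0, (r * w * r⁻¹ * w⁻¹) * z' = z' * (r * w * r⁻¹ * w⁻¹) := fun z' hz' =>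
    h.com_cen hr hw1 hz'
  have hs : (r * w * r⁻¹ * w⁻¹) * w * ((r * w * r⁻¹ * w⁻¹) * w) = 1 := by
    calc _ = r * (w * w) * r⁻¹ := by group
      _ = 1 := by rw [h.Wsq w hw]; group
  generalize r * w * r⁻¹ * w⁻¹ = z at hz hc hs ⊢
  by_cases hzv : z ∈ zpowers v
  · exact (h.cen hzv hw1.1).symm
  let C := h.Z0 ⊓ centralizer (h.Z0 : Set G)
  have l1 : zpowers v ≤ C := le_inf h.ZZ0 fun e he a ha => h.cen he (h.Z0le ha).1
  have h1 := h.card3 (K := C) (inf_le_left.trans h.Z0le) (l1 (mem_zpowers v)) (h.xZ0.inf h.xZ0.cent)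
  have h2 := lt_card l1 (t := z) ⟨hz, fun a ha => (hc a ha).symm⟩ hzv
  have h3 : Nat.card C ≤ Nat.card h.Z0 := card_le_of_le inf_le_left
  rw [h.cZ] at h2
  have h4 : C = h.Z0 := eq_of_le_of_card_ge inf_le_left (by rw [h.cZ0 hn] at h3 ⊢; omega)
  have ab : ∀ a ∈ h.Z0, ∀ b ∈ h.Z0, a * b = b * a := fun a ha b hb =>
    (show b ∈ C from h4 ▸ hb).2 a ha
  obtain ⟨e, he, e1⟩ : ∃ e ∈ zpowers v, w * z = e * z * w := ⟨_, hz.2 w hw1, by group⟩
  have e2 : z * z = e := by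
    have : e * (z * z) = 1 := by
      calc e * (z * z) = (e * z) * z * (w * w) := by rw [h.Wsq w hw]; group
        _ = (z * e) * z * (w * w) := by rw [h.cen he hz.1.1]
        _ = z * (e * z * w) * w := by group
        _ = 1 := by rw [← e1, ← hs]; group
    rw [← h.Zsq he] at this
    exact mul_left_cancel this
  have a1 := h.xZ0 z hz
  have a2 := h.xZ0.inv hz
  have x3 : x⁻¹ = x * x := by
    rw [inv_eq_iff_mul_eq_one, ← h.hx]; simp only [pow_succ, pow_zero]; group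
  have n1 : z * (x * z * x⁻¹) * (x⁻¹ * z * x) ∈ zpowers v := by
    refine h.fix _ (h.Z0le (mul_mem (mul_mem hz a1) a2)) ?_
    have b1 : x * (x * z * x⁻¹) * x⁻¹ = x⁻¹ * z * x := by
      calc _ = (x * x) * z * (x * x)⁻¹ := by group
        _ = _ := by rw [← x3]; group
    have : x * (z * (x * z * x⁻¹) * (x⁻¹ * z * x)) * x⁻¹ = z * (x * z * x⁻¹) * (x⁻¹ * z * x) := by
      calc _ = (x * z * x⁻¹) * (x * (x * z * x⁻¹) * x⁻¹) * z := by group
        _ = (x * z * x⁻¹) * (x⁻¹ * z * x) * z := by rw [b1]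
        _ = _ := by rw [ab _ (mul_mem a1 a2) z hz]; group
    exact (mul_inv_eq_iff_eq_mul.1 this).symm
  have n2 := h.Zsq n1
  have xe : x * e = e * x := by
    rcases h.memZ he with rfl | rfl
    · simp
    · exact h.xv
  have s1 : (x * z * x⁻¹) * (x * z * x⁻¹) = e := by
    calc _ = x * (z * z) * x⁻¹ := by group
      _ = e := by rw [e2, xe]; group
  have s2 : (x⁻¹ * z * x) * (x⁻¹ * z * x) = e := by
    calc _ = x⁻¹ * ((z * z) * x) := by group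
      _ = e := by rw [e2, ← xe]; group
  generalize x * z * x⁻¹ = z1 at *
  generalize x⁻¹ * z * x = z2 at *
  have : e * e * e = 1 := by
    rw [← n2]
    calc e * e * e = (z * z) * (z1 * z1) * (z2 * z2) := by rw [e2, s1, s2]
      _ = z * (z * z1) * (z1 * z2) * z2 := by group
      _ = z * (z1 * z) * (z2 * z1) * z2 := by rw [ab z hz z1 a1, ab z1 a1 z2 a2]
      _ = z * z1 * (z * z2) * z1 * z2 := by group
      _ = _ := by rw [ab z hz z2 a2]; group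
  rw [h.Zsq he, one_mul] at this
  rw [e1, this, one_mul]

theorem mem0 (hn : ¬ W ≤ h.Z0) {w r : G} (hw : w ∈ W) (hwv : w ∉ zpowers v) (hr : r ∈ R1 W R)
    (hz : r * w * r⁻¹ * w⁻¹ ∈ zpowers v) : r ∈ R0 W R := by
  refine ⟨hr.1, H72.mem_normalizer_of_conj_mem fun u hu => ?_⟩
  let U := zpowers v ⊔ zpowers w
  by_cases hU : u ∈ U
  · have : U ≤ W.comap (MulAut.conj r).toMonoidHom := by
      refine sup_le (zpowers_le.2 ?_) (zpowers_le.2 ?_)
      · change r * v * r⁻¹ ∈ W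
        rw [h.Rv r hr.1]; simpa using h.vW
      · change r * w * r⁻¹ ∈ W
        have : r * w * r⁻¹ = (r * w * r⁻¹ * w⁻¹) * w := by group
        rw [this]
        exact mul_mem (h.ZW hz) hw
    exact this hU
  have c1 := h.com_w hn hu hr
  have c2 := h.com_w hn (mul_mem hw hu) hr
  have hz' := h.comZ0 hn (h.W0 hu) hr
  have e0 : r * (w * u) * r⁻¹ * (w * u)⁻¹ = (r * w * r⁻¹ * w⁻¹) * (w * (r * u * r⁻¹ * u⁻¹) * w⁻¹) := by group
  rw [e0] at c2
  have e1 : r * u * r⁻¹ = (r * u * r⁻¹ * u⁻¹) * u := by group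
  rw [e1]
  generalize r * u * r⁻¹ * u⁻¹ = z at *
  generalize r * w * r⁻¹ * w⁻¹ = e at *
  have c3 : z * w = w * z := by
    rw [← mul_assoc (w * u), h.cen hz (h.WR (mul_mem hw hu)), mul_assoc e, mul_assoc e] at c2
    have c4 := mul_left_cancel c2
    have c5 : z * (u * w) = u * w * z := by
      calc _ = w⁻¹ * (w * z * w⁻¹ * (w * u)) * w := by group
        _ = _ := by rw [c4]; group
    have c6 : u * (z * w) = u * (w * z) := by
      calc _ = (u * z) * w := by group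
        _ = z * (u * w) := by rw [← c1]; group
        _ = _ := by rw [c5]; group
    exact mul_left_cancel c6
  let C := W ⊓ centralizer ({z} : Set G)
  have l1 : U ≤ C := sup_le (zpowers_le.2 ⟨h.vW, mem_centralizer_singleton_iff.2 (h.Rv z hz'.1.1).symm⟩)
    (zpowers_le.2 ⟨hw, mem_centralizer_singleton_iff.2 c3.symm⟩)
  have h1 : Nat.card (zpowers v) < Nat.card U :=
    lt_card (le_sup_left : zpowers v ≤ U) (t := w) (mem_sup_right (mem_zpowers w)) hwv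
  have h2 := lt_card l1 (t := u) ⟨hu, mem_centralizer_singleton_iff.2 c1.symm⟩ hU
  have h3 := card_dvd_of_le (l1.trans inf_le_left)
  have h4 : Nat.card C ∣ Nat.card W := card_dvd_of_le (inf_le_left : C ≤ W)
  rw [h.cW] at h3 h4
  rw [h.cZ] at h1
  have h6 : 8 ≤ Nat.card C := by
    rcases dvd8 h3 with e | e | e | e <;> rcases dvd8 h4 with f | f | f | f <;> omega
  have h5 : C = W := eq_of_le_of_card_ge inf_le_left (by rw [h.cW]; exact h6)
  exact mul_mem (h.CW z fun a ha => mem_centralizer_singleton_iff.1 (show a ∈ C from h5 ▸ ha).2) hu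

theorem exw : ∃ w ∈ W, w ∉ zpowers v := by
  by_contra e
  push Not at e
  have := card_le_of_le (show W ≤ zpowers v from e)
  rw [h.cW, h.cZ] at this
  omega

theorem two (hn : ¬ W ≤ h.Z0) {r r' : G} (hr : r ∈ R1 W R) (hr' : r' ∈ R1 W R) (h0 : r ∉ R0 W R)
    (h0' : r' ∉ R0 W R) : r⁻¹ * r' ∈ R0 W R := by
  obtain ⟨w, hw, hwv⟩ := h.exw
  let C := h.Z0 ⊓ centralizer ({w} : Set G)
  have l1 : zpowers v ≤ C := le_inf h.ZZ0 fun e he =>
    mem_centralizer_singleton_iff.2 (h.cen he (h.WR hw)).symm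
  have m1 : ∀ r ∈ R1 W R, r * w * r⁻¹ * w⁻¹ ∈ C := fun r hr =>
    ⟨h.comZ0 hn (h.W0 hw) hr, mem_centralizer_singleton_iff.2 (h.com_w hn hw hr)⟩
  have m2 : ∀ r ∈ R1 W R, r ∉ R0 W R → r * w * r⁻¹ * w⁻¹ ∉ zpowers v := fun r hr h0 e =>
    h0 (h.mem0 hn hw hwv hr e)
  have h1 := lt_card l1 (m1 r hr) (m2 r hr h0)
  have h2 : Nat.card C < Nat.card h.Z0 := by
    refine H1.card_lt_of_lt (lt_of_le_of_ne inf_le_left fun e => ?_)
    let T := W ⊓ centralizer (R0 W R : Set G)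
    have l2 : zpowers v ≤ T := le_inf h.ZW fun e he a ha => h.cen he ha.1
    have t1 : w ∈ T := ⟨hw, fun a ha => by
      obtain ⟨w', hw', z, hz, rfl⟩ := h.dec hn ha
      have := mem_centralizer_singleton_iff.1 (show z ∈ C from e ▸ hz).2
      rw [mul_assoc, this, ← mul_assoc, h.Wcomm hw' hw, mul_assoc]⟩
    have t2 := h.card3 (K := T) (inf_le_left.trans h.W0) (l2 (mem_zpowers v)) (h.xW.inf h.x0.cent)
    have t3 := lt_card l2 t1 hwv
    rw [h.cZ] at t3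
    have t4 : T = W := eq_of_le_of_card_ge inf_le_left (by rw [h.cW]; omega)
    have t5 : R0 W R ≤ W := fun a ha => h.CW a fun b hb => ((show b ∈ T from t4 ▸ hb).2 a ha).symm
    have := card_le_of_le t5
    rw [h.c0, h.cW] at this
    omega
  have h3 : Nat.card C ∣ Nat.card h.Z0 := card_dvd_of_le (inf_le_left : C ≤ h.Z0)
  rw [h.cZ0 hn] at h2 h3
  rw [h.cZ] at h1
  have h4 := H1.card_mul_relIndex_of_le l1
  have h5 : ((zpowers v).subgroupOf C).index = 2 := by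
    change (zpowers v).relIndex C = 2
    rw [h.cZ] at h4
    generalize (zpowers v).relIndex C = j at *
    rcases dvd8 h3 with e | e | e | e <;> omega
  have h6 := (mul_mem_iff_of_index_two h5 (a := ⟨_, inv_mem (m1 r hr)⟩) (b := ⟨_, m1 r' hr'⟩)).2
    ⟨fun e => absurd (inv_mem_iff.1 (mem_subgroupOf.1 e)) (m2 r hr h0),
      fun e => absurd (mem_subgroupOf.1 e) (m2 r' hr' h0')⟩
  have h7 : (r * w * r⁻¹ * w⁻¹)⁻¹ * (r' * w * r'⁻¹ * w⁻¹) ∈ zpowers v := mem_subgroupOf.1 h6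
  refine h.mem0 hn hw hwv (mul_mem (inv_mem hr) hr') ?_
  have hR : w * r * w⁻¹ ∈ R := mul_mem (mul_mem (h.WR hw) hr.1) (inv_mem (h.WR hw))
  have : r⁻¹ * r' * w * (r⁻¹ * r')⁻¹ * w⁻¹ = (w * r * w⁻¹)⁻¹ *
      ((r * w * r⁻¹ * w⁻¹)⁻¹ * (r' * w * r'⁻¹ * w⁻¹) * (w * r * w⁻¹)) := by group
  rw [this, ← h.cen h7 hR, inv_mul_cancel_left]
  exact h7

theorem com00 (hn : ¬ W ≤ h.Z0) {a b : G} (ha : a ∈ R0 W R) (hb : b ∈ R0 W R) :
    b * a * b⁻¹ * a⁻¹ ∈ zpowers v := by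
  let T := up (R0 W R) (R0 W R) (zpowers v) h.nZ
  obtain ⟨w, hw, z, hz, rfl⟩ := h.dec hn ha
  have h1 : w ∈ T := ⟨h.W0 hw, fun r hr => by
    obtain ⟨w', hw', z', hz', rfl⟩ := h.dec hn hr
    have k := inv_mem (hz'.2 w (h.le01 (h.W0 hw)))
    have : w' * z' * w * (w' * z')⁻¹ * w⁻¹ = w' * (w * z' * w⁻¹ * z'⁻¹)⁻¹ * (w * w'⁻¹) * w⁻¹ := by group
    rw [this, h.cen k (h.WR hw'), h.Wcomm hw (inv_mem hw')]
    simpa [mul_assoc] using k⟩
  have h2 : z ∈ T := ⟨hz.1, fun r hr => hz.2 r (h.le01 hr)⟩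
  exact (mul_mem h1 h2).2 b hb

theorem main : R ≤ normalizer (W : Set G) ∨ Nat.card R = 64 := by
  by_cases hn : W ≤ h.Z0
  · exact .inl (h.done_of_le hn)
  by_cases h1 : R1 W R ≤ R0 W R
  · exact .inl fun r hr => (le_of_norm h.pR inf_le_left h1 hr).2
  obtain ⟨r0, r1, r2⟩ := SetLike.not_le_iff_exists.1 h1
  have i2 : (R0 W R).relIndex (R1 W R) = 2 := by
    refine index_eq_two_iff'.2 ⟨⟨r0⁻¹, inv_mem r1⟩, fun b => ?_⟩
    simp only [mem_subgroupOf, coe_mul]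
    by_cases hb : (b : G) ∈ R0 W R
    · exact .inr ⟨hb, fun e => r2 (by simpa using inv_mem (mul_mem e (inv_mem hb)))⟩
    · exact .inl ⟨h.two hn r1 b.2 r2 hb, hb⟩
  have c1 := H1.card_mul_relIndex_of_le h.le01
  rw [i2, h.c0] at c1
  have : R ≤ R1 W R := by
    refine le_of_norm h.pR inf_le_left fun g hg => ⟨hg.1, H72.mem_normalizer_of_conj_mem fun t ht => ?_⟩
    by_contra hr
    have hr1 : g * t * g⁻¹ ∈ R1 W R := H72.conj_mem_of_mem_normalizer hg.2 (h.le01 ht)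
    let D := (R0 W R).map (MulAut.conj g).toMonoidHom
    have d1 : D ≤ R1 W R := by
      rintro _ ⟨a, ha, rfl⟩
      exact H72.conj_mem_of_mem_normalizer hg.2 (h.le01 ha)
    have d2 : R0 W R ⊓ D ≤ h.Z0 := by
      rintro u ⟨hu, a, ha, e⟩
      have e' : g * a * g⁻¹ = u := e
      have k : (g * t * g⁻¹) * u * (g * t * g⁻¹)⁻¹ * u⁻¹ ∈ zpowers v := by
        have k0 := h.com00 hn ha ht
        have : (g * t * g⁻¹) * u * (g * t * g⁻¹)⁻¹ * u⁻¹ = g * (t * a * t⁻¹ * a⁻¹) * g⁻¹ := by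
          rw [← e']; group
        rw [this, h.cen k0 hg.1]
        simpa using k0
      obtain ⟨w, hw, z, hz, rfl⟩ := h.dec hn hu
      generalize g * t * g⁻¹ = r at hr hr1 k
      refine mul_mem (h.ZZ0 ?_) hz
      by_contra hwv
      refine hr (h.mem0 hn hw hwv hr1 ?_)
      have k1 := hz.2 r hr1
      have : r * w * r⁻¹ * w⁻¹ = (r * (w * z) * r⁻¹ * (w * z)⁻¹) * (w * (r * z * r⁻¹ * z⁻¹)⁻¹ * w⁻¹) := by
        group
      rw [this]
      exact mul_mem k (h.nZ w (h.W0 hw) _ (inv_mem k1))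
    have d3 := H1.card_inf_mul_relIndex (R0 W R) D
    have d4 : (R0 W R).relIndex D ≤ 2 := i2 ▸ relIndex_le_of_le_right d1 (by rw [i2]; omega)
    have d5 := card_le_of_le d2
    rw [H72.card_map_conj, h.c0] at d3
    rw [h.cZ0 hn] at d5
    nlinarith
  right
  rw [le_antisymm this inf_le_left, ← c1]

end BS

theorem eqns_b1a : True := by
  have := @up.eq_1.{0}
  have := @Iv.eq_1.{0}
  have := @R0.eq_1.{0}
  have := @R1.eq_1.{0}
  have := @BS.Z0.eq_1.{0}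
  trivial

end H63.B1
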