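import Mathlib
import Cfsg.Agent.Base

/-! FS3: tools for the groups `2^n . L₂(7)`. -/

set_option autoImplicit false
set_option linter.unusedSectionVars false
set_option linter.style.haveILetI false

namespace H96.FS

open Subgroup

section Tools
variable {G : Type*} [Group G] [Finite G]

theorem mem_c {a b : G} : a ∈ centralizer ({b} : Set G) ↔ a * b = b * a :=
  mem_centralizer_singleton_iff

/-- a `p`-group acting by conjugation on an invariant set -/
theorem ncard_modEq (p : ℕ) [Fact p.Prime] (P : Subgroup G) (hP : IsPGroup p P) (S : Set G)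
    (hS : ∀ g ∈ P, ∀ a ∈ S, g * a * g⁻¹ ∈ S) :
    S.ncard ≡ (S ∩ {a | ∀ g ∈ P, g * a = a * g}).ncard [MOD p] := by
  letI : MulAction P S :=
    { smul := fun g a => ⟨g * a * (g : G)⁻¹, hS g g.2 a a.2⟩
      one_smul := fun a => Subtype.ext (by change ((1 : P) : G) * a * ((1 : P) : G)⁻¹ = a; simp)
      mul_smul := fun g h a => Subtype.ext (by
        change ((g * h : P) : G) * a * ((g * h : P) : G)⁻¹ = g * (h * a * (h : G)⁻¹) * (g : G)⁻¹
        simp [mul_assoc]) }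
  have h := hP.card_modEq_card_fixedPoints S
  have e : Nat.card (MulAction.fixedPoints P S) =
      (S ∩ {a | ∀ g ∈ P, g * a = a * g}).ncard := by
    rw [← Nat.card_coe_set_eq]
    refine Nat.card_congr ⟨fun a => ⟨a.1.1, a.1.2, fun g hg => ?_⟩,
      fun a => ⟨⟨a.1, a.2.1⟩, fun g => Subtype.ext ?_⟩, fun _ => rfl, fun _ => rfl⟩
    · have := congrArg Subtype.val (a.2 ⟨g, hg⟩)
      change g * a.1.1 * g⁻¹ = a.1.1 at this
      exact mul_inv_eq_iff_eq_mul.1 this
    · change (g : G) * a.1 * (g : G)⁻¹ = a.1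
      rw [a.2.2 g g.2]; simp
  rwa [e, Nat.card_coe_set_eq] at h

theorem card_rel {A L : Subgroup G} (h : A ≤ L) : A.relIndex L * Nat.card A = Nat.card L := by
  rw [← Nat.card_congr (subgroupOfEquivOfLe h).toEquiv, relIndex, index_mul_card]

theorem card_mul_le {A B L : Subgroup G} (hA : A ≤ L) (hB : B ≤ L) :
    Nat.card A * Nat.card B ≤ Nat.card L * Nat.card (A ⊓ B : Subgroup G) := by
  have h1 := card_rel hA
  have h2 := card_rel hB
  have h3 := card_rel (inf_le_left.trans hA : A ⊓ B ≤ L)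
  have h4 : (A ⊓ B).relIndex L ≤ A.relIndex L * B.relIndex L := relIndex_inf_le
  have h5 : 0 < Nat.card L := Nat.card_pos
  have h6 : 0 < A.relIndex L * B.relIndex L := by
    refine Nat.mul_pos (Nat.pos_of_ne_zero fun e => ?_) (Nat.pos_of_ne_zero fun e => ?_)
    · rw [e] at h1; omega
    · rw [e] at h2; omega
  refine Nat.le_of_mul_le_mul_left ?_ h6
  calc A.relIndex L * B.relIndex L * (Nat.card A * Nat.card B)
      = (A.relIndex L * Nat.card A) * (B.relIndex L * Nat.card B) := by ring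
    _ = Nat.card L * ((A ⊓ B).relIndex L * Nat.card (A ⊓ B : Subgroup G)) := by rw [h1, h2, h3]
    _ ≤ Nat.card L * ((A.relIndex L * B.relIndex L) * Nat.card (A ⊓ B : Subgroup G)) := by gcongr
    _ = _ := by ring

/-- the normaliser condition -/
theorem exists_norm {p : ℕ} [Fact p.Prime] {R K : Subgroup G} (hR : IsPGroup p R) (h : K ≤ R)
    (hne : ¬ R ≤ K) : ∃ g ∈ R, g ∉ K ∧ ∀ k ∈ K, g * k * g⁻¹ ∈ K := by
  haveI := hR.isNilpotent
  have h1 : K.subgroupOf R < ⊤ := lt_top_iff_ne_top.2 fun e => hne (subgroupOf_eq_top.1 e)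
  obtain ⟨g, hg, hg'⟩ := SetLike.exists_of_lt (Group.normalizerCondition_of_isNilpotent _ h1)
  refine ⟨g, g.2, hg', fun k hk => ?_⟩
  exact (mem_normalizer_iff.1 hg ⟨k, h hk⟩).1 hk

theorem ncard_conj (v : G) :
    {b | IsConj v b}.ncard * Nat.card (centralizer ({v} : Set G)) = Nat.card G := by
  have h2 : MulAction.orbit (ConjAct G) v = {b | IsConj v b} := by
    ext b
    rw [ConjAct.mem_orbit_conjAct, isConj_comm]
    rfl
  rw [nat_card_centralizer_nat_card_stabilizer, ← h2, ← MulAction.index_stabilizer, index_mul_card]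
  rfl

theorem conj3 (h9 : ¬ 9 ∣ Nat.card G) (H : Subgroup G) {a b : G} (ha : a ∈ H) (hb : b ∈ H)
    (oa : orderOf a = 3) (ob : orderOf b = 3) :
    ∃ h ∈ H, h * a * h⁻¹ = b ∨ h * a * h⁻¹ = b⁻¹ := by
  haveI : Fact (Nat.Prime 3) := ⟨Nat.prime_three⟩
  have key : ∀ c : H, orderOf (c : G) = 3 → ∃ P : Sylow 3 H, (P : Subgroup H) = zpowers c := by
    intro c oc
    have o : Nat.card (zpowers c) = 3 := by rw [Nat.card_zpowers, ← orderOf_coe, oc]
    have hp : IsPGroup 3 (zpowers c) := IsPGroup.of_card (n := 1) (by simpa using o)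
    refine ⟨hp.toSylow fun hd => h9 ?_, rfl⟩
    have e := (zpowers c).index_mul_card
    rw [o] at e
    refine Dvd.dvd.trans ?_ (card_subgroup_dvd_card H)
    rw [← e]
    exact Nat.mul_dvd_mul hd (dvd_refl 3)
  obtain ⟨P, hP⟩ := key ⟨a, ha⟩ oa
  obtain ⟨Q, hQ⟩ := key ⟨b, hb⟩ ob
  obtain ⟨h, e⟩ := MulAction.exists_smul_eq H P Q
  have m : h * ⟨a, ha⟩ * h⁻¹ ∈ zpowers (⟨b, hb⟩ : H) := by
    rw [← hQ, ← e, Sylow.coe_subgroup_smul]
    have : (⟨a, ha⟩ : H) ∈ (P : Subgroup H) := hP ▸ mem_zpowers _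
    exact smul_mem_pointwise_smul _ (MulAut.conj h) _ this
  obtain ⟨k, hk⟩ := mem_zpowers_iff.1 m
  have hk' : b ^ k = h * a * (h : G)⁻¹ := by simpa using congrArg Subtype.val hk
  have b3 : b ^ 3 = 1 := ob ▸ pow_orderOf_eq_one b
  refine ⟨h, h.2, ?_⟩
  rw [← hk', ← zpow_mod_orderOf, ob]
  have : k % (3 : ℕ) = 0 ∨ k % (3 : ℕ) = 1 ∨ k % (3 : ℕ) = 2 := by push_cast; omega
  rcases this with e | e | e
  · exfalso
    have : h * a * (h : G)⁻¹ = 1 := by rw [← hk', ← zpow_mod_orderOf, ob, e, zpow_zero]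
    have : a = 1 := by simpa using this
    rw [this, orderOf_one] at oa; omega
  · left; rw [e, zpow_one]
  · right; rw [e, eq_inv_iff_mul_eq_one, ← b3, zpow_two, pow_three']

theorem comm_of_sq {a b : G} (ha : a * a = 1) (hb : b * b = 1) (e : a * b * (a * b) = 1) :
    a * b = b * a :=
  calc a * b = a * ((a * b) * (a * b)) * b := by rw [e, mul_one]
    _ = (a * a) * (b * a) * (b * b) := by group
    _ = b * a := by rw [ha, hb]; group

theorem three_not_mem {R : Subgroup G} (h2 : IsPGroup 2 R) {x : G} (ox : orderOf x = 3) : x ∉ R :=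
  fun h => by
    obtain ⟨k, hk⟩ := h2 ⟨x, h⟩
    have : orderOf x ∣ 2 ^ k := orderOf_dvd_of_pow_eq_one (by simpa using congrArg Subtype.val hk)
    rw [ox] at this
    exact absurd (Nat.prime_three.dvd_of_dvd_pow this) (by norm_num)

theorem inv_not_mem {R : Subgroup G} (h2 : IsPGroup 2 R) {x s : G} (ox : orderOf x = 3)
    (hx : x ∈ normalizer (R : Set G)) (e : s * x * s⁻¹ = x⁻¹) : s ∉ R := fun h => by
  have x3 : x ^ 3 = 1 := ox ▸ pow_orderOf_eq_one x
  have := R.mul_mem h ((mem_normalizer_iff.1 hx _).1 (R.inv_mem h))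
  have e' : s * (x * s⁻¹ * x⁻¹) = x := by
    calc s * (x * s⁻¹ * x⁻¹) = s * x * s⁻¹ * x⁻¹ * x ^ 3 := by rw [x3]; group
      _ = x := by rw [e]; group
  exact three_not_mem h2 ox (e' ▸ this)

/-- a subgroup of exponent two normalised by `x` lies in the normal subgroup `R` with quotient `S₃` -/
theorem le_of_six {C R : Subgroup G} (hn : C ≤ normalizer (R : Set G)) (hR : R ≤ C)
    (h2 : IsPGroup 2 R) (hc : Nat.card C = 6 * Nat.card R) {x s w : G} (ox : orderOf x = 3)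
    (hx : x ∈ C) (hs : s ∈ C) (hw : w ∈ C) (e : s * x * s⁻¹ = x⁻¹) (e1 : w * w = 1)
    (e2 : (x * w * x⁻¹ * w⁻¹) ^ 2 = 1) : w ∈ R := by
  haveI : (R.subgroupOf C).Normal := (normal_subgroupOf_iff_le_normalizer hR).2 hn
  have hi : (R.subgroupOf C).index = 6 := by
    have := card_rel hR
    rw [hc] at this
    exact Nat.eq_of_mul_eq_mul_right Nat.card_pos this
  let π := QuotientGroup.mk' (R.subgroupOf C)
  have x3 : x ^ 3 = 1 := ox ▸ pow_orderOf_eq_one x
  have hπ : ∀ g (hg : g ∈ C), π ⟨g, hg⟩ = 1 ↔ g ∈ R := fun g hg =>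
    QuotientGroup.eq_one_iff (N := R.subgroupOf C) ⟨g, hg⟩
  have hx1 : π ⟨x, hx⟩ ≠ 1 := fun h => three_not_mem h2 ox ((hπ _ _).1 h)
  have a3 : π ⟨x, hx⟩ ^ 3 = 1 := by rw [← map_pow, ← map_one π]; congr 1; exact Subtype.ext x3
  have b1 : π ⟨s, hs⟩ * π ⟨x, hx⟩ * (π ⟨s, hs⟩)⁻¹ = (π ⟨x, hx⟩)⁻¹ := by
    simp only [← map_inv, ← map_mul]; congr 1; exact Subtype.ext e
  have c1 : π ⟨w, hw⟩ * π ⟨w, hw⟩ = 1 := by
    rw [← map_mul, ← map_one π]; congr 1; exact Subtype.ext e1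
  have c2 : (π ⟨x, hx⟩ * π ⟨w, hw⟩ * (π ⟨x, hx⟩)⁻¹ * (π ⟨w, hw⟩)⁻¹) ^ 2 = 1 := by
    simp only [← map_inv, ← map_mul, ← map_pow]; rw [← map_one π]; congr 1; exact Subtype.ext e2
  rw [← hπ w hw]
  clear hπ
  generalize π ⟨x, hx⟩ = a at *
  generalize π ⟨s, hs⟩ = b at *
  generalize π ⟨w, hw⟩ = c at *
  haveI : Fact (Nat.Prime 3) := ⟨Nat.prime_three⟩
  have oa : orderOf a = 3 := orderOf_eq_prime a3 hx1
  have i2 : (zpowers a).index = 2 := by
    have := (zpowers a).index_mul_card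
    rw [Nat.card_zpowers, oa, ← index_eq_card, hi] at this
    omega
  have a2 : a * a ≠ 1 := fun h => hx1 (by rw [← a3, pow_three', h, one_mul])
  have cm : ∀ y ∈ zpowers a, y * a = a * y := by
    rintro _ ⟨k, rfl⟩; simp only; group
  have hb : b ∉ zpowers a := fun h => a2 (by
    rw [cm b h, mul_inv_cancel_right] at b1
    exact mul_eq_one_iff_eq_inv.2 b1)
  by_cases hc' : c ∈ zpowers a
  · have h3 : c ^ 3 = 1 := by
      obtain ⟨k, rfl⟩ := hc'
      simp only
      rw [← zpow_natCast, ← zpow_mul, mul_comm, zpow_mul, zpow_natCast, a3, one_zpow]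
    rwa [pow_three', c1, one_mul] at h3
  · exfalso
    have m : b⁻¹ * c ∈ zpowers a := by
      rw [mul_mem_iff_of_index_two i2]; simp [hb, hc']
    have e3 : c * a * c⁻¹ = a⁻¹ := by
      rw [← b1]
      calc c * a * c⁻¹ = b * (b⁻¹ * c * a) * c⁻¹ := by group
        _ = b * a * b⁻¹ := by rw [cm _ m]; group
    have e4 : a * c * a⁻¹ * c⁻¹ = a * a := by
      calc a * c * a⁻¹ * c⁻¹ = a * (c * a * c⁻¹)⁻¹ := by group
        _ = a * a := by rw [e3, inv_inv]
    rw [e4] at c2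
    apply hx1
    calc a = a ^ 3 * a := by rw [a3, one_mul]
      _ = (a * a) ^ 2 := by simp only [pow_succ, pow_zero, one_mul, mul_assoc]
      _ = 1 := c2

end Tools

/-- an extension `W . Γ` with `Γ` like `L₂(7)` -/
structure Ext {K Γ : Type*} [Group K] [Group Γ] (x : K) (W : Subgroup K) (φ : K →* Γ) : Prop where
  ord : orderOf x = 3
  comm : ∀ a b : K, a * x = x * a → b * x = x * b → a * b = b * a
  inv : ∀ g : K, g * x * g⁻¹ = x⁻¹ → g * g = 1
  surj : Function.Surjective φ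
  ker : φ.ker = W
  ea : ∀ a ∈ W, a * a = 1
  simple : IsSimpleGroup Γ
  card : Nat.card Γ = 168
  invol : ∀ a b : Γ, orderOf a = 2 → orderOf b = 2 → IsConj a b
  real : ∀ y : Γ, orderOf y = 3 → IsConj y y⁻¹
  seven : ∀ y : K, orderOf y = 7 → W ⊓ centralizer ({y} : Set K) = ⊥

namespace Ext

variable {K Γ : Type*} [Group K] [Finite K] [Group Γ] {x : K} {W : Subgroup K} {φ : K →* Γ}
  (h : Ext x W φ)
include h

theorem mem {a : K} : a ∈ W ↔ φ a = 1 := by rw [← h.ker, MonoidHom.mem_ker]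

theorem normal : W.Normal := h.ker ▸ φ.normal_ker

theorem cj {a : K} (ha : a ∈ W) (g : K) : g * a * g⁻¹ ∈ W := h.normal.conj_mem a ha g

theorem ab {a b : K} (ha : a ∈ W) (hb : b ∈ W) : a * b = b * a :=
  comm_of_sq (h.ea a ha) (h.ea b hb) (h.ea _ (W.mul_mem ha hb))

theorem isP : IsPGroup 2 W := fun a => ⟨1, Subtype.ext (by simpa [pow_two] using h.ea a a.2)⟩

theorem cardK : Nat.card K = 168 * Nat.card W := by
  rw [← W.index_mul_card, ← h.ker, index_ker, MonoidHom.range_eq_top.2 h.surj, card_top, h.card]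

theorem nine : ¬ 9 ∣ Nat.card K := by
  obtain ⟨n, hn⟩ := h.isP.exists_card_eq
  rw [h.cardK, hn]
  intro hd
  have := (Nat.Coprime.pow_right n (by norm_num : Nat.Coprime 9 2)).dvd_of_dvd_mul_right hd
  omega

theorem x3 : x ^ 3 = 1 := h.ord ▸ pow_orderOf_eq_one x

theorem x1 : x ≠ 1 := fun e => by have := h.ord; rw [e, orderOf_one] at this; omega

theorem x2 : x * x ≠ 1 := fun e => h.x1 (by rw [← h.x3, pow_three', e, one_mul])

theorem ordφ : orderOf (φ x) = 3 := by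
  haveI : Fact (Nat.Prime 3) := ⟨Nat.prime_three⟩
  exact orderOf_eq_prime (by rw [← map_pow, h.x3, map_one]) fun e => h.x2 (h.ea x (h.mem.2 e))

theorem φ2 : φ x * φ x ≠ 1 := fun e => by
  have := orderOf_dvd_of_pow_eq_one (show φ x ^ 2 = 1 by rw [pow_two, e])
  rw [h.ordφ] at this; omega

theorem exists_s : ∃ s : K, s * x * s⁻¹ = x⁻¹ := by
  obtain ⟨c, hc⟩ := isConj_iff.1 (h.real _ h.ordφ)
  obtain ⟨g, rfl⟩ := h.surj c
  obtain ⟨k, hk, e | e⟩ := conj3 h.nine ((zpowers (φ x)).comap φ) (a := g * x * g⁻¹) (b := x)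
    (by rw [mem_comap, map_mul, map_mul, map_inv, hc]; exact inv_mem (mem_zpowers _))
    (mem_zpowers _) (by rw [← h.ord]; exact (MulAut.conj g).orderOf_eq x) h.ord
  · exfalso
    have e' := congrArg φ e
    obtain ⟨n, hn⟩ := mem_zpowers_iff.1 (mem_comap.1 hk)
    simp only [map_mul, map_inv] at e'
    rw [hc, ← hn] at e'
    apply h.φ2
    calc φ x * φ x = φ x * (φ x ^ n * (φ x)⁻¹ * (φ x ^ n)⁻¹) := by rw [e']
      _ = 1 := by group
  · exact ⟨k * g, by rw [← e]; group⟩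

theorem s_comm {s v : K} (hs : s * x * s⁻¹ = x⁻¹) (hv : v * x = x * v) (v2 : v * v = 1) :
    s * v = v * s :=
  comm_of_sq (h.inv s hs) v2 (h.inv (s * v) (by
    rw [← hs]
    calc _ = s * (v * x) * v⁻¹ * s⁻¹ := by group
      _ = _ := by rw [hv]; group))

/-- involutions of `C(x)` are not fused -/
theorem fus {v w : K} (hv : v * x = x * v) (v2 : v * v = 1) (hw : w * x = x * w)
    (e : IsConj v w) : w = v := by
  obtain ⟨g, rfl⟩ := isConj_iff.1 e
  obtain ⟨k, hk, e⟩ := conj3 h.nine (centralizer {g * v * g⁻¹}) (a := g * x * g⁻¹) (b := x)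
    (by
      rw [mem_c]
      calc _ = g * (x * v) * g⁻¹ := by group
        _ = _ := by rw [← hv]; group)
    (mem_c.2 hw.symm) (by rw [← h.ord]; exact (MulAut.conj g).orderOf_eq x) h.ord
  have e1 : k * g * v = v * (k * g) := by
    rcases e with e | e
    · refine h.comm _ _ ?_ hv
      calc k * g * x = k * (g * x * g⁻¹) * k⁻¹ * (k * g) := by group
        _ = _ := by rw [e]
    · exact h.s_comm (by rw [← e]; group) hv v2
  calc g * v * g⁻¹ = k * (g * v * g⁻¹) * k⁻¹ := by rw [mem_c.1 hk]; group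
    _ = k * g * v * (k * g)⁻¹ := by group
    _ = v := by rw [e1]; group

theorem ord_two {a : K} (ha : a ∉ W) (a2 : a * a ∈ W) : orderOf (φ a) = 2 :=
  orderOf_eq_prime (by rw [pow_two, ← map_mul, ← h.mem]; exact a2) fun e => ha (h.mem.2 e)

theorem s_not {s : K} (hs : s * x * s⁻¹ = x⁻¹) : s ∉ W :=
  inv_not_mem h.isP h.ord (by haveI := h.normal; rw [normalizer_eq_top]; trivial) hs

/-- an element which is an involution modulo `W` is conjugate into `sW` -/
theorem conj_s {s a : K} (hs : s * x * s⁻¹ = x⁻¹) (ha : a ∉ W) (a2 : a * a ∈ W) :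
    ∃ l : K, ∃ w ∈ W, l * a * l⁻¹ = s * w := by
  obtain ⟨c, hc⟩ := isConj_iff.1 (h.invol _ _ (h.ord_two ha a2)
    (h.ord_two (h.s_not hs) (by rw [h.inv s hs]; exact W.one_mem)))
  obtain ⟨l, rfl⟩ := h.surj c
  refine ⟨l, s⁻¹ * (l * a * l⁻¹), h.mem.2 ?_, by group⟩
  simp only [map_mul, map_inv]
  rw [hc, inv_mul_cancel]

theorem card_fix {a : K} (ha : a ∉ W) (a2 : a * a ∈ W) :
    Nat.card (W ⊓ centralizer ({a} : Set K) : Subgroup K) ^ 2 ≤
      Nat.card W * Nat.card (W ⊓ centralizer ({x} : Set K) : Subgroup K) := by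
  obtain ⟨s, hs⟩ := h.exists_s
  obtain ⟨l, w, hw, e⟩ := h.conj_s hs ha a2
  have key : ∀ g b : K, ∀ u ∈ W, g * a * g⁻¹ = b * u →
      Nat.card (W ⊓ centralizer ({a} : Set K) : Subgroup K) ≤
        Nat.card (W ⊓ centralizer ({b} : Set K) : Subgroup K) := by
    intro g b u hu e
    refine Nat.card_le_card_of_injective
      (fun c => ⟨g * c * g⁻¹, h.cj c.2.1 g, mem_c.2 ?_⟩) fun c d e => Subtype.ext ?_
    · have e1 := mem_c.1 c.2.2
      have e2 := h.ab (h.cj c.2.1 g) (W.inv_mem hu)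
      rw [← mul_inv_eq_iff_eq_mul] at e
      rw [← e]
      calc _ = g * (c * a) * g⁻¹ * u⁻¹ := by group
        _ = g * a * g⁻¹ * (g * c * g⁻¹ * u⁻¹) := by rw [e1]; group
        _ = _ := by rw [e2]; group
    · simpa using congrArg Subtype.val e
  have k1 := key l s w hw e
  have k2 := key (x * l) (x * s * x⁻¹) _ (h.cj hw x) (by
    calc _ = x * (l * a * l⁻¹) * x⁻¹ := by group
      _ = _ := by rw [e]; group)
  have k3 := card_mul_le (inf_le_left : W ⊓ centralizer ({s} : Set K) ≤ W)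
    (inf_le_left : W ⊓ centralizer ({x * s * x⁻¹} : Set K) ≤ W)
  have k4 : (W ⊓ centralizer ({s} : Set K)) ⊓ (W ⊓ centralizer ({x * s * x⁻¹} : Set K)) ≤
      W ⊓ centralizer ({x} : Set K) := by
    rintro c ⟨⟨c1, c2⟩, -, c3⟩
    refine ⟨c1, mem_c.2 ?_⟩
    have e1 : x = s * (x * s⁻¹ * x⁻¹) := by
      calc x = x⁻¹ * x⁻¹ * x ^ 3 := by group
        _ = s * x * s⁻¹ * x⁻¹ := by rw [h.x3, hs, mul_one]
        _ = _ := by group
    have m : x ∈ centralizer ({c} : Set K) := by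
      rw [e1]
      refine mul_mem (mem_c.2 (mem_c.1 c2).symm) ?_
      have := inv_mem (mem_c.2 (mem_c.1 c3).symm)
      simpa [mul_assoc] using this
    exact (mem_c.1 m).symm
  calc _ = _ * _ := pow_two _
    _ ≤ _ := Nat.mul_le_mul k1 k2
    _ ≤ _ := k3
    _ ≤ _ := Nat.mul_le_mul_left _ (card_le_of_le k4)

theorem not_seven {v : K} (hv : v ∈ W) (v1 : v ≠ 1) :
    ¬ 7 ∣ Nat.card (centralizer ({v} : Set K)) := fun hd => by
  haveI : Fact (Nat.Prime 7) := ⟨by norm_num⟩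
  obtain ⟨y, hy⟩ := exists_prime_orderOf_dvd_card' 7 hd
  have := h.seven y (by rw [orderOf_coe, hy])
  exact v1 ((eq_bot_iff_forall _).1 this v ⟨hv, mem_c.2 (mem_c.1 y.2).symm⟩)

/-- no conjugacy class outside `W` centralises a non-trivial element of `W` -/
theorem not_cent {v a : K} (hv : v ∈ W) (v1 : v ≠ 1) (ha : a ∉ W)
    (hc : ∀ l : K, l * a * l⁻¹ * v = v * (l * a * l⁻¹)) : False := by
  haveI := h.simple
  have h1 : normalClosure ({a} : Set K) ≤ centralizer ({v} : Set K) := by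
    rw [normalClosure, closure_le]
    intro b hb
    obtain ⟨c, hc', e⟩ := Group.mem_conjugatesOfSet_iff.1 hb
    obtain ⟨l, rfl⟩ := isConj_iff.1 e
    rw [Set.mem_singleton_iff.1 hc']
    exact mem_c.2 (hc l)
  have h2 : (normalClosure ({a} : Set K)).map φ = ⊤ := by
    refine (Normal.eq_bot_or_eq_top (normalClosure_normal.map φ h.surj)).resolve_left fun e => ha ?_
    exact h.mem.2 ((eq_bot_iff_forall _).1 e _ (mem_map_of_mem φ (subset_normalClosure rfl)))
  refine h.not_seven hv v1 (Dvd.dvd.trans ?_ (card_dvd_of_le h1))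
  refine Dvd.dvd.trans ?_ (card_dvd_of_surjective _ (φ.subgroupMap_surjective _))
  rw [h2, card_top, h.card]; norm_num

/-- an `x`-invariant part of the class of `v` -/
theorem mod_three {v : K} (hv : v * x = x * v) (v2 : v * v = 1) (S : Set K)
    (h1 : ∀ a ∈ S, IsConj v a) (h2 : v ∈ S) (h3 : ∀ a ∈ S, x * a * x⁻¹ ∈ S) : S.ncard % 3 = 1 := by
  haveI : Fact (Nat.Prime 3) := ⟨Nat.prime_three⟩
  have hp : IsPGroup 3 (zpowers x) :=
    IsPGroup.of_card (n := 1) (by rw [Nat.card_zpowers, h.ord]; rfl)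
  have := ncard_modEq 3 (zpowers x) hp S (by
    intro g hg a ha
    obtain ⟨n, rfl⟩ := (mem_powers_iff_mem_zpowers.2 hg)
    simp only
    induction n with
    | zero => simpa using ha
    | succ n ih =>
      have := h3 _ (ih (pow_mem (mem_zpowers x) n))
      rwa [show x * (x ^ n * a * (x ^ n)⁻¹) * x⁻¹ = x ^ (n + 1) * a * (x ^ (n + 1))⁻¹ by group]
        at this)
  have e : S ∩ {a | ∀ g ∈ zpowers x, g * a = a * g} = {v} := by
    ext a
    refine ⟨fun ha => h.fus hv v2 (ha.2 x (mem_zpowers x)).symm (h1 a ha.1), ?_⟩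
    rintro rfl
    refine ⟨h2, fun g hg => ?_⟩
    exact mem_c.1 ((zpowers_le.2 (mem_c.2 hv.symm)) hg)
  rw [e, Set.ncard_singleton] at this
  exact this

theorem six_dvd {s : K} (hs : s * x * s⁻¹ = x⁻¹) {H : Subgroup K} (h1 : W ≤ H) (hx : x ∈ H)
    (h2 : s ∈ H) : 6 * Nat.card W ∣ Nat.card H := by
  rw [← card_rel h1]
  refine Nat.mul_dvd_mul_right ?_ _
  rw [← h.ker, relIndex_ker]
  refine Nat.Coprime.mul_dvd_of_dvd_of_dvd (a := _) (m := 2) (n := 3) (by norm_num) ?_ ?_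
  · rw [← h.ord_two (h.s_not hs) (by rw [h.inv s hs]; exact W.one_mem)]
    exact orderOf_dvd_natCard _ (mem_map_of_mem φ h2)
  · rw [← h.ordφ]
    exact orderOf_dvd_natCard _ (mem_map_of_mem φ hx)

theorem orb (cW : Nat.card W = 64) {v : K} (hW : v ∈ W) (hv : v * x = x * v) (v1 : v ≠ 1) :
    Nat.card (centralizer ({v} : Set K)) = 1536 ∨ {b | IsConj v b}.ncard = 28 := by
  obtain ⟨s, hs⟩ := h.exists_s
  have h1 := ncard_conj v
  have h2 := h.six_dvd hs (H := centralizer {v}) (fun w hw => mem_c.2 (h.ab hw hW))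
    (mem_c.2 hv.symm) (mem_c.2 (h.s_comm hs hv (h.ea v hW)))
  have h3 := h.not_seven hW v1
  have h4 := h.mod_three hv (h.ea v hW) {b | IsConj v b} (fun _ h => h) (IsConj.refl v)
    fun a ha => IsConj.trans ha (isConj_iff.2 ⟨x, rfl⟩)
  rw [h.cardK, cW] at h1
  rw [cW] at h2
  obtain ⟨m, hm⟩ := h2
  rw [hm] at h1 h3 ⊢
  generalize {b | IsConj v b}.ncard = n at *
  have h5 : n * m = 28 := by nlinarith
  have h6 : n ≤ 28 := Nat.le_of_dvd (by norm_num) (Dvd.intro _ h5)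
  interval_cases n <;> omega

theorem big (cW : Nat.card W = 64)
    (cV : Nat.card (W ⊓ centralizer ({x} : Set K) : Subgroup K) = 4) :
    ∃ v ∈ W, v * x = x * v ∧ v ≠ 1 ∧ Nat.card (centralizer ({v} : Set K)) = 1536 := by
  by_contra! hc
  have h3 : (((W ⊓ centralizer ({x} : Set K) : Subgroup K) : Set K) \ {1}).ncard = 3 := by
    rw [Set.ncard_sdiff_singleton_of_mem (one_mem _), ← Nat.card_coe_set_eq]
    exact congrArg (· - 1) cV
  obtain ⟨a, b, c, ab, ac, bc, e⟩ := Set.ncard_eq_three.1 h3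
  have m : ∀ u ∈ ({a, b, c} : Set K), u ∈ W ∧ u * x = x * u ∧ {d | IsConj u d}.ncard = 28 := by
    intro u hu
    rw [← e] at hu
    have := mem_c.1 hu.1.2
    exact ⟨hu.1.1, this, (h.orb cW hu.1.1 this hu.2).resolve_left (hc u hu.1.1 this hu.2)⟩
  have d : ∀ u ∈ ({a, b, c} : Set K), ∀ u' ∈ ({a, b, c} : Set K), u ≠ u' →
      Disjoint {d | IsConj u d} {d | IsConj u' d} := fun u hu u' hu' ne =>
    Set.disjoint_left.2 fun d h1 h2 => ne (h.fus (m u hu).2.1 (h.ea u (m u hu).1) (m u' hu').2.1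
      (IsConj.trans h1 (IsConj.symm h2))).symm
  have s : ∀ u ∈ ({a, b, c} : Set K), {d | IsConj u d} ⊆ W := fun u hu d hd => by
    obtain ⟨g, rfl⟩ := isConj_iff.1 hd
    exact h.cj (m u hu).1 g
  have := Set.ncard_le_ncard (Set.union_subset (Set.union_subset (s a (by simp)) (s b (by simp)))
    (s c (by simp)))
  rw [Set.ncard_union_eq (Set.disjoint_union_left.2 ⟨d a (by simp) c (by simp) ac,
      d b (by simp) c (by simp) bc⟩), Set.ncard_union_eq (d a (by simp) b (by simp) ab),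
    (m a (by simp)).2.2, (m b (by simp)).2.2, (m c (by simp)).2.2, ← Nat.card_coe_set_eq] at this
  have e' : Nat.card (W : Set K) = 64 := cW
  omega

theorem no_second (cW : Nat.card W = 64)
    (cV : Nat.card (W ⊓ centralizer ({x} : Set K) : Subgroup K) = 4) {v : K} (hW : v ∈ W)
    (hv : v * x = x * v) (v1 : v ≠ 1) (cv : Nat.card (centralizer ({v} : Set K)) = 1536)
    {R A : Subgroup K} (h2 : IsPGroup 2 R) (r1 : R ≤ centralizer {v})
    (r2 : centralizer {v} ≤ normalizer (R : Set K)) (r3 : W ≤ R) (cR : Nat.card R ≤ 256)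
    (a1 : A ≤ R) (a2 : ∀ a ∈ A, a * a = 1) (cA : Nat.card A = 64) : A ≤ W := by
  by_contra hne
  obtain ⟨a, ha, ha'⟩ := SetLike.not_le_iff_exists.1 hne
  have a3 : ∀ b ∈ A, ∀ c ∈ A, b * c = c * b := fun b hb c hc =>
    comm_of_sq (a2 b hb) (a2 c hc) (a2 _ (A.mul_mem hb hc))
  have aa : a * a ∈ W := by rw [a2 a ha]; exact W.one_mem
  have c1 := h.card_fix ha' aa
  have l1 : A ⊓ W ≤ W ⊓ centralizer {a} := fun c hc => ⟨hc.2, mem_c.2 (a3 c hc.1 a ha)⟩
  have c2 := card_le_of_le l1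
  have c3 := card_mul_le (le_sup_left : A ≤ A ⊔ W) le_sup_right
  have c4 := card_le_of_le (sup_le a1 r3)
  rw [cW, cV] at c1
  rw [cA, cW] at c3
  have c5 : Nat.card (W ⊓ centralizer ({a} : Set K) : Subgroup K) ≤ 16 := by nlinarith
  have e1 : A ⊔ W = R := eq_of_le_of_card_ge (sup_le a1 r3) (by nlinarith)
  have e2 : A ⊓ W = W ⊓ centralizer {a} := eq_of_le_of_card_ge l1 (by nlinarith)
  have key : ∀ c ∈ W, c * a = a * c → ∀ g ∈ R, g * c = c * g := by
    intro c hc e g hg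
    have m : c ∈ A ⊓ W := e2 ▸ ⟨hc, mem_c.2 e⟩
    have : A ⊔ W ≤ centralizer {c} :=
      sup_le (fun b hb => mem_c.2 (a3 b hb c m.1)) fun b hb => mem_c.2 (h.ab hb hc)
    exact mem_c.1 (this (e1 ▸ hg))
  have cO : {b | IsConj v b}.ncard = 7 := by
    have := ncard_conj v
    rw [cv, h.cardK, cW] at this
    omega
  have xn : x ∈ normalizer (R : Set K) := r2 (mem_c.2 hv.symm)
  have m2 := ncard_modEq 2 R h2 {b | IsConj v b} fun g _ b hb =>
    IsConj.trans hb (isConj_iff.2 ⟨g, rfl⟩)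
  set S := {b | IsConj v b} ∩ {a | ∀ g ∈ R, g * a = a * g} with hS
  have vS : v ∈ S := ⟨IsConj.refl v, fun g hg => mem_c.1 (r1 hg)⟩
  have m3 := h.mod_three hv (h.ea v hW) S (fun _ h => h.1) vS fun b hb =>
    ⟨IsConj.trans hb.1 (isConj_iff.2 ⟨x, rfl⟩), fun g hg => by
      have := hb.2 _ ((mem_normalizer_iff.1 (inv_mem xn) g).1 hg)
      calc g * (x * b * x⁻¹) = x * (x⁻¹ * g * x⁻¹⁻¹ * b) * x⁻¹ := by group
        _ = _ := by rw [this]; group⟩
  obtain ⟨s, hs⟩ := h.exists_s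
  obtain ⟨l, w, hw, e⟩ := h.conj_s hs ha' aa
  have v'S : l⁻¹ * v * l⁻¹⁻¹ ∈ S := by
    refine ⟨isConj_iff.2 ⟨_, rfl⟩, key _ (h.cj hW _) ?_⟩
    calc l⁻¹ * v * l⁻¹⁻¹ * a = l⁻¹ * (v * (l * a * l⁻¹)) * l := by group
      _ = l⁻¹ * (l * a * l⁻¹ * v) * l := by
        rw [e, ← mul_assoc v, ← h.s_comm hs hv (h.ea v hW), mul_assoc s, h.ab hW hw, mul_assoc s]
      _ = _ := by group
  have ne : v ≠ l⁻¹ * v * l⁻¹⁻¹ := fun e' => by
    have ml : l ∈ centralizer ({v} : Set K) := mem_c.2 (by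
      calc l * v = l * (l⁻¹ * v * l⁻¹⁻¹) := by rw [← e']
        _ = _ := by group)
    have := (mem_normalizer_iff.1 (r2 ml) a).1 (a1 ha)
    rw [e] at this
    exact inv_not_mem h2 h.ord xn hs (by simpa using R.mul_mem this (R.inv_mem (r3 hw)))
  have n2 : 1 < S.ncard := (Set.one_lt_ncard_iff (Set.toFinite S)).2 ⟨_, _, vS, v'S, ne⟩
  have n7 := Set.ncard_le_ncard (Set.inter_subset_left : S ⊆ _)
  have e7 : S = {b | IsConj v b} := Set.eq_of_subset_of_ncard_le Set.inter_subset_left (by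
    rw [cO] at m2 n7 ⊢
    unfold Nat.ModEq at m2
    omega)
  refine h.not_cent hW v1 ha' fun k => ?_
  have : k⁻¹ * v * k⁻¹⁻¹ ∈ S := e7 ▸ isConj_iff.2 ⟨_, rfl⟩
  have := this.2 a (a1 ha)
  calc k * a * k⁻¹ * v = k * (a * (k⁻¹ * v * k⁻¹⁻¹)) * k⁻¹ := by group
    _ = _ := by rw [this]; group

end Ext

/-- `N(W) = 2⁶ . L₂(7)` -/
theorem b3_core {G Γ : Type*} [Group G] [Finite G] [Group Γ] {x : G} {W : Subgroup G}
    {φ : normalizer (W : Set G) →* Γ} (hx : x ∈ normalizer (W : Set G))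
    (h : Ext (⟨x, hx⟩ : normalizer (W : Set G)) (W.subgroupOf _) φ) (cW : Nat.card W = 64)
    (cV : Nat.card (W ⊓ centralizer ({x} : Set G) : Subgroup G) = 4)
    (six : ∀ v : G, v * x = x * v → v * v = 1 → v ≠ 1 → ∃ R : Subgroup G, IsPGroup 2 R ∧
      R ≤ centralizer ({v} : Set G) ∧ centralizer ({v} : Set G) ≤ normalizer (R : Set G) ∧
      Nat.card (centralizer ({v} : Set G)) = 6 * Nat.card R) :
    ∃ v : G, v * x = x * v ∧ v * v = 1 ∧ v ≠ 1 ∧ Nat.card (centralizer ({v} : Set G)) = 1536 := by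
  set L := normalizer (W : Set G) with hL
  have WL : W ≤ L := le_normalizer
  have cs : ∀ {X : Subgroup G}, X ≤ L → Nat.card (X.subgroupOf L) = Nat.card X := fun hX =>
    Nat.card_congr (subgroupOfEquivOfLe hX).toEquiv
  have ce : ∀ a : L, centralizer ({a} : Set L) = (centralizer ({(a : G)} : Set G)).subgroupOf L :=
    fun a => by ext b; simp only [mem_subgroupOf, mem_c, Subtype.ext_iff, coe_mul]
  have cW' : Nat.card (W.subgroupOf L) = 64 := (cs WL).trans cW
  have cV' : Nat.card (W.subgroupOf L ⊓ centralizer ({⟨x, hx⟩} : Set L) : Subgroup L) = 4 := by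
    rw [ce, ← cV, ← cs (inf_le_left.trans WL)]; rfl
  obtain ⟨v, hW, hv, v1, cv⟩ := h.big cW' cV'
  have hv' : (v : G) * x = x * v := congrArg Subtype.val hv
  have v2 : (v : G) * v = 1 := congrArg Subtype.val (h.ea v hW)
  have v1' : (v : G) ≠ 1 := fun e => v1 (Subtype.ext e)
  obtain ⟨R, h2, r1, r2, cR⟩ := six v hv' v2 v1'
  refine ⟨v, hv', v2, v1', ?_⟩
  obtain ⟨s, hs⟩ := h.exists_s
  have sv := h.s_comm hs hv (h.ea v hW)
  have ox : orderOf x = 3 := by rw [← h.ord, ← orderOf_coe]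
  have WR : W ≤ R := fun w hw => by
    have hw' : (⟨w, WL hw⟩ : L) ∈ W.subgroupOf L := hw
    refine le_of_six r2 r1 h2 cR ox (mem_c.2 hv'.symm) (mem_c.2 (congrArg Subtype.val sv))
      (mem_c.2 (congrArg Subtype.val (h.ab hw' hW))) (congrArg Subtype.val hs)
      (congrArg Subtype.val (h.ea _ hw')) ?_
    rw [pow_two]
    exact congrArg Subtype.val (h.ea _ (mul_mem (h.cj hw' ⟨x, hx⟩) (inv_mem hw')))
  have h2' : IsPGroup 2 (R.subgroupOf L) := h2.comap_subtype
  have r1' : R.subgroupOf L ≤ centralizer {v} := by rw [ce]; exact comap_mono r1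
  have r2' : centralizer {v} ≤ normalizer (R.subgroupOf L : Set L) := by
    intro g hg
    rw [ce] at hg
    exact mem_normalizer_iff.2 fun a => mem_normalizer_iff.1 (r2 hg) a
  have c1 : Nat.card (R.subgroupOf L) = Nat.card (R ⊓ L : Subgroup G) := by
    rw [← cs inf_le_right, inf_subgroupOf_right]
  have c2 : Nat.card (R.subgroupOf L) ≤ 256 := by
    obtain ⟨n, hn⟩ := h2'.exists_card_eq
    have e := card_rel r1'
    rw [cv, hn] at e
    rw [hn]
    by_contra! hlt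
    have n9 : 8 < n := (Nat.pow_lt_pow_iff_right (a := 2) (by norm_num)).1 hlt
    obtain ⟨m, rfl⟩ := Nat.exists_eq_add_of_lt n9
    have e3 : (R.subgroupOf L).relIndex (centralizer {v}) * 2 ^ m = 3 := by
      rw [pow_succ, pow_add] at e; nlinarith
    have m0 : m = 0 := by
      rcases m with _ | m
      · rfl
      · rw [pow_succ, ← mul_assoc] at e3; omega
    rw [m0, pow_zero, mul_one] at e3
    haveI := (normal_subgroupOf_iff_le_normalizer r1').2 r2'
    have := pow_index_mem ((R.subgroupOf L).subgroupOf (centralizer {v})) ⟨s, mem_c.2 sv⟩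
    rw [← relIndex, e3, mem_subgroupOf, coe_pow, pow_three', h.inv s hs, one_mul] at this
    exact inv_not_mem h2' h.ord (r2' (mem_c.2 hv.symm)) hs this
  have RL : R ≤ L := by
    by_contra hne
    obtain ⟨g, g1, g2, g3⟩ := exists_norm h2 (inf_le_left : R ⊓ L ≤ R)
      fun e => hne (e.trans inf_le_right)
    have a0 : W.map (MulAut.conj g).toMonoidHom ≤ R ⊓ L := by
      rintro _ ⟨w, hw, rfl⟩
      exact g3 w ⟨WR hw, WL hw⟩
    have := h.no_second cW' cV' hW hv v1 cv h2' r1' r2' (comap_mono WR) c2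
      (A := (W.map (MulAut.conj g).toMonoidHom).subgroupOf L) (comap_mono (a0.trans inf_le_left))
      (by
        rintro ⟨_, ha⟩ ⟨w, hw, rfl⟩
        have := congrArg Subtype.val (h.ea ⟨w, WL hw⟩ hw)
        refine Subtype.ext ?_
        change g * w * g⁻¹ * (g * w * g⁻¹) = 1
        change w * w = 1 at this
        rw [conj_mul, this]; simp)
      (by rw [cs (a0.trans inf_le_right), card_map_of_injective (MulAut.conj g).injective, cW])
    refine g2 ⟨g1, mem_normalizer_fintype fun w hw => ?_⟩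
    exact @this ⟨_, (a0 ⟨w, hw, rfl⟩).2⟩ ⟨w, hw, rfl⟩
  have c3 := card_mul_le r1 (inf_le_left : centralizer ({(v : G)} : Set G) ⊓ L ≤ _)
  rw [ce, ← inf_subgroupOf_right, cs inf_le_right] at cv
  rw [cv, cR, ← inf_assoc, inf_eq_left.2 r1, ← c1] at c3
  rw [cs RL] at c2 c3
  have : 0 < Nat.card R := Nat.card_pos
  rw [cR]
  nlinarith

end H96.FS
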